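import Cfsg.Agent.Lib.MetacyclicP.ONanAbelian.Main

/-!
# From one stabiliser to a system
-/

set_option autoImplicit false
set_option linter.unusedSectionVars false
set_option linter.style.haveILetI false

namespace CfsgLib.MetacyclicP.ONanAbelian

/-- An abelian normal subgroup of a point stabiliser, not semiregular elsewhere, gives a system. -/
theorem exists_absys {G X : Type*} [Group G] [Finite G] [MulAction G X] [FaithfulSMul G X]
    (two : ∀ a b a' b' : X, a ≠ b → a' ≠ b' → ∃ g : G, g • a = a' ∧ g • b = b')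
    (x : X) (N : Subgroup G) (hle : N ≤ MulAction.stabilizer G x)
    (hnorm : ∀ g ∈ MulAction.stabilizer G x, ∀ n ∈ N, g * n * g⁻¹ ∈ N)
    (hab : ∀ a ∈ N, ∀ b ∈ N, a * b = b * a)
    (hns : ∃ n ∈ N, n ≠ 1 ∧ ∃ y : X, y ≠ x ∧ n • y = y) : Nonempty (AbSys G X) := by
  classical
  obtain ⟨n, hn, hn1, y, hyx, hny⟩ := hns
  obtain ⟨p, hp, hpd⟩ := Nat.exists_prime_and_dvd (n := orderOf n)
    (fun h => hn1 (orderOf_eq_one_iff.1 h))
  let P : Subgroup G :=
    { carrier := {g | g ∈ N ∧ ∃ i : ℕ, g ^ p ^ i = 1}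
      one_mem' := ⟨N.one_mem, 0, one_pow _⟩
      mul_mem' := fun {g h} hg hh => by
        obtain ⟨hgN, i, hi⟩ := hg
        obtain ⟨hhN, j, hj⟩ := hh
        refine ⟨N.mul_mem hgN hhN, i + j, ?_⟩
        have hc : Commute g h := hab g hgN h hhN
        rw [hc.mul_pow]
        conv_lhs => arg 1; rw [pow_add, pow_mul, hi, one_pow]
        rw [pow_add, mul_comm, pow_mul, hj, one_pow, one_mul]
      inv_mem' := fun {g} hg => ⟨N.inv_mem hg.1, hg.2.imp fun i hi => by rw [inv_pow, hi, inv_one]⟩ }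
  have hPle : ∀ g ∈ P, g • x = x := fun g hg => hle hg.1
  have hPn : ∀ g : G, g • x = x → ∀ u ∈ P, g * u * g⁻¹ ∈ P := fun g hg u hu =>
    ⟨hnorm g hg u hu.1, hu.2.imp fun i hi => by rw [conj_pow, hi, mul_one, mul_inv_cancel]⟩
  have tr : ∀ z : X, ∃ g : G, g • x = z := fun z => by
    by_cases hz : z = x
    · exact ⟨1, by rw [one_smul, hz]⟩
    · obtain ⟨g, hg, -⟩ := two x y z x (Ne.symm hyx) hz
      exact ⟨g, hg⟩
  choose t ht using tr
  let Nf : X → Subgroup G := fun z => P.map (MulAut.conj (t z)).toMonoidHom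
  have hmem : ∀ z g, g ∈ Nf z ↔ (t z)⁻¹ * g * t z ∈ P := fun z g => by
    constructor
    · rintro ⟨u, hu, rfl⟩
      simpa [mul_assoc] using hu
    · intro h
      exact ⟨_, h, by simp [mul_assoc]⟩
  refine ⟨{
    N := Nf
    le := fun z g hg => ?_
    conj := fun g z m hm => ?_
    comm := fun z u hu v hv => ?_
    p := p
    hp := hp
    pgroup := fun z g => ?_
    two := two
    faithful := fun g hg => eq_of_smul_eq_smul fun z : X => (hg z).trans (one_smul G z).symm
    ns := ?_ }⟩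
  · have := hPle _ ((hmem z g).1 hg)
    rw [mul_smul, mul_smul, ht, inv_smul_eq_iff, ht] at this
    exact this
  · rw [hmem] at hm ⊢
    have hfix : ((t (g • z))⁻¹ * g * t z) • x = x := by
      rw [mul_smul, mul_smul, ht, inv_smul_eq_iff, ht]
    have := hPn _ hfix _ hm
    convert this using 1
    group
  · rw [hmem] at hu hv
    have := hab _ hu.1 _ hv.1
    calc u * v = t z * (((t z)⁻¹ * u * t z) * ((t z)⁻¹ * v * t z)) * (t z)⁻¹ := by group
      _ = t z * (((t z)⁻¹ * v * t z) * ((t z)⁻¹ * u * t z)) * (t z)⁻¹ := by rw [this]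
      _ = v * u := by group
  · obtain ⟨-, i, hi⟩ := (hmem z g).1 g.2
    refine ⟨i, Subtype.ext ?_⟩
    have h2 : (t z)⁻¹ * (g : G) * t z = (t z)⁻¹ * (g : G) * ((t z)⁻¹)⁻¹ := by rw [inv_inv]
    rw [h2, conj_pow] at hi
    simpa using (conj_eq_one_iff.1 hi)
  · set m := n ^ (orderOf n / p) with hm
    have hord : orderOf m = p := orderOf_pow_orderOf_div (orderOf_pos n).ne' hpd
    have hmP : m ∈ P := ⟨N.pow_mem hn _, 1, by rw [pow_one, ← hord]; exact pow_orderOf_eq_one m⟩
    have hmy : m • y = y := (MulAction.stabilizer G y).pow_mem hny _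
    refine ⟨x, y, hyx.symm, m, (hmem x m).2 ?_, fun h => hp.ne_one (by rw [← hord, h, orderOf_one]), hmy⟩
    have htx : ((t x)⁻¹) • x = x := by rw [inv_smul_eq_iff, ht]
    simpa using hPn _ htx m hmP

end CfsgLib.MetacyclicP.ONanAbelian
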