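import Cfsg.Agent.Lib.MetacyclicP.ONanAbelian.Lines

/-!
# The linear space is projective
-/

set_option autoImplicit false
set_option linter.unusedSectionVars false
set_option linter.style.haveILetI false
set_option maxHeartbeats 800000

namespace CfsgLib.MetacyclicP.ONanAbelian

namespace AbSys

variable {G X : Type*} [Group G] [Fintype G] [MulAction G X] [Fintype X] (S : AbSys G X)

open scoped Classical

theorem O_ne_exists {a z : X} (haz : a ≠ z) : ∃ w ∈ S.O a z, w ≠ z :=
  Finset.exists_mem_ne (by have := S.two_le_O haz; omega) z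

/-- The fixed set of a kernel is symmetrical. -/
theorem fixed_symm {a b z : X} (hab : a ≠ b) (h : ∀ m ∈ S.K b a, m • z = z) :
    ∀ k ∈ S.K a b, k • z = z := by
  intro k hk
  by_contra hkz
  have hbz : b ≠ z := fun e => hkz (e ▸ (hk.2 : k • b = b))
  obtain ⟨w, hw, hwz⟩ := S.O_ne_exists hbz
  obtain ⟨m, hm, rfl⟩ := S.trans_of_moved hab hk hkz hw
  exact hwz (h m hm)

/-- A moved point is moved transitively along its line. -/
theorem trans_self {a b z : X} (hab : a ≠ b) {k : G} (hk : k ∈ S.K a b) (hkz : k • z ≠ z) {w : X}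
    (hw : w ∈ S.O a z) : ∃ k' ∈ S.K a b, k' • z = w := by
  have hbz : b ≠ z := fun e => hkz (e ▸ (hk.2 : k • b = b))
  obtain ⟨v, hv, hvz⟩ := S.O_ne_exists hbz
  obtain ⟨m, hm, rfl⟩ := S.trans_of_moved hab hk hkz hv
  exact S.trans_of_moved hab.symm hm hvz hw

/-- The fixed set of a kernel. -/
noncomputable def flat (a b : X) : Finset X := Finset.univ.filter fun z => ∀ k ∈ S.K a b, k • z = z

theorem mem_flat {a b z : X} : z ∈ S.flat a b ↔ ∀ k ∈ S.K a b, k • z = z := by simp [flat]

theorem flat_symm {a b : X} (hab : a ≠ b) : S.flat a b = S.flat b a := by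
  ext z
  rw [mem_flat, mem_flat]
  exact ⟨fun h => S.fixed_symm hab.symm h, fun h => S.fixed_symm hab h⟩

theorem left_mem_flat (a b : X) : a ∈ S.flat a b := S.mem_flat.2 fun _ hk => S.K_fix_left hk

theorem right_mem_flat (a b : X) : b ∈ S.flat a b := S.mem_flat.2 fun _ hk => hk.2

theorem flat_left {a b y : X} (hab : a ≠ b) (hy : y ∈ S.flat a b) (hya : y ≠ a) :
    S.flat a y = S.flat a b := by
  have e : S.K a b = S.K a y :=
    le_eq (fun k hk => ⟨hk.1, S.mem_flat.1 hy k hk⟩) (le_of_eq (S.card_K hya.symm hab))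
  ext z
  rw [mem_flat, mem_flat, e]

theorem flat_eq {a b x y : X} (hab : a ≠ b) (hx : x ∈ S.flat a b) (hy : y ∈ S.flat a b) (hxy : x ≠ y) :
    S.flat x y = S.flat a b := by
  by_cases hxa : x = a
  · subst hxa; exact S.flat_left hab hy hxy.symm
  have e1 := S.flat_left hab hx hxa
  rw [S.flat_symm (Ne.symm hxa)] at e1
  rw [S.flat_left hxa (e1.symm ▸ hy) hxy.symm, e1]

theorem line_subset_flat {a b : X} (hab : a ≠ b) : S.line a b ⊆ S.flat a b := fun _ hz =>
  S.mem_flat.2 fun k hk => S.U_fix hab hz (S.K_le_U a b hk)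

theorem card_N_eq {a b : X} (hab : a ≠ b) :
    Nat.card (S.N a) = (S.O a b).card * Nat.card (S.K a b) := by
  rw [Nat.card_eq_fintype_card, ← Finset.card_univ, Finset.card_eq_sum_card_image
    (fun n : S.N a => (n : G) • b) Finset.univ, Finset.sum_const_nat (m := Nat.card (S.K a b))]
  · congr 2
    ext z
    simp [mem_O]
  · intro z hz
    obtain ⟨n₀, -, rfl⟩ := Finset.mem_image.1 hz
    rw [Nat.card_eq_fintype_card, ← Finset.card_univ]
    refine Finset.card_bij'
      (fun n _ => (⟨((n₀⁻¹ * n : S.N a) : G), (n₀⁻¹ * n).2, ?_⟩ : S.K a b))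
      (fun k _ => n₀ * ⟨k.1, k.2.1⟩) (fun _ _ => Finset.mem_univ _)
      (fun k _ => Finset.mem_filter.2 ⟨Finset.mem_univ _, by
        rw [Subgroup.coe_mul, mul_smul]; exact congrArg _ k.2.2⟩)
      (fun n _ => Subtype.ext (by simp)) (fun k _ => Subtype.ext (by simp))
    rename_i h
    rw [Finset.mem_filter] at h
    show ((n₀⁻¹ * n : S.N a) : G) • b = b
    rw [Subgroup.coe_mul, Subgroup.coe_inv, mul_smul, h.2, inv_smul_smul]

/-- If `k` lies in `N z` and fixes two points of a flat then it fixes it. -/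
theorem fix_flat {a b z x : X} (hab : a ≠ b) (hz : z ∉ S.flat a b) {m : G} (hm : m ∈ S.N z)
    (hma : m • a = a) (hmb : m • b = b) (hx : x ∈ S.flat a b) : m • x = x := by
  by_contra hne
  have hx' : m • x ∈ S.flat a b := S.mem_flat.2 fun k hk => by
    have h1 := S.K_conj m⁻¹ hk
    rw [inv_smul_eq_iff.2 hma.symm, inv_smul_eq_iff.2 hmb.symm, inv_inv] at h1
    have h2 := S.mem_flat.1 hx _ h1
    rw [mul_smul, mul_smul, inv_smul_eq_iff] at h2
    exact h2
  apply hz
  have hzx : z ≠ x := fun e => hz (e ▸ hx)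
  have h3 := S.centre_line hm hzx
  have e := S.line_eq hzx (S.right_mem_line hzx) h3 (Ne.symm hne)
  have hzl : z ∈ S.line x (m • x) := e.symm ▸ S.left_mem_line z x
  have h4 := S.line_subset_flat (Ne.symm hne) hzl
  rwa [S.flat_eq hab hx hx' (Ne.symm hne)] at h4

/-- A flat is a line. -/
theorem flat_eq_line {a b : X} (hab : a ≠ b) : S.flat a b = S.line a b := by
  obtain ⟨k, hk, z, hkz⟩ := S.exists_moved hab
  have hz : z ∉ S.flat a b := fun h => hkz (S.mem_flat.1 h k hk)
  set q := (S.O a b).card with hq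
  have hza : z ≠ a := fun e => hz (e ▸ S.left_mem_flat a b)
  have hzb : z ≠ b := fun e => hz (e ▸ S.right_mem_flat a b)
  have hzx : ∀ x ∈ S.flat a b, z ≠ x := fun x hx e => hz (e ▸ hx)
  have hκ : ∀ x ∈ S.flat a b, Nat.card (S.K z x) = Nat.card (S.K a b) := fun x hx =>
    S.card_K (hzx x hx) hab
  set M := S.K z a ⊓ S.K z b with hM
  have hMle : ∀ x ∈ S.flat a b, M ≤ S.K z x := fun x hx m hm =>
    ⟨hm.1.1, S.fix_flat hab hz hm.1.1 hm.1.2 hm.2.2 hx⟩
  have hindex : ∀ x ∈ S.flat a b, ∀ y ∈ S.flat a b, x ≠ y →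
      Nat.card (S.K z x) = q * Nat.card (S.K z x ⊓ S.K z y : Subgroup G) := by
    intro x hx y hy hxy
    obtain ⟨k', hk', hk'y⟩ : ∃ k' ∈ S.K z x, k' • y ≠ y := by
      by_contra hh
      push Not at hh
      have h1 := S.flat_eq (hzx x hx) (S.right_mem_flat z x) (S.mem_flat.2 hh) hxy
      rw [S.flat_eq hab hx hy hxy] at h1
      exact hz (h1.symm ▸ S.left_mem_flat z x)
    rw [Nat.card_eq_fintype_card, ← Finset.card_univ, Finset.card_eq_sum_card_image
      (fun n : S.K z x => (n : G) • y) Finset.univ,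
      Finset.sum_const_nat (m := Nat.card (S.K z x ⊓ S.K z y : Subgroup G))]
    · congr 1
      rw [hq, S.card_O hab (hzx y hy)]
      congr 1
      ext w
      rw [mem_O, Finset.mem_image]
      refine ⟨fun ⟨n, _, he⟩ => ⟨n.1, n.2.1, he⟩, fun hw => ?_⟩
      obtain ⟨n, hn, he⟩ := S.trans_self (hzx x hx) hk' hk'y (S.mem_O.2 hw)
      exact ⟨⟨n, hn⟩, Finset.mem_univ _, he⟩
    · intro w hw
      obtain ⟨n₀, -, rfl⟩ := Finset.mem_image.1 hw
      rw [Nat.card_eq_fintype_card, ← Finset.card_univ]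
      refine Finset.card_bij'
        (fun n _ => (⟨((n₀⁻¹ * n : S.K z x) : G), (n₀⁻¹ * n).2, (n₀⁻¹ * n).2.1, ?_⟩ :
          (S.K z x ⊓ S.K z y : Subgroup G)))
        (fun k _ => n₀ * ⟨k.1, k.2.1⟩) (fun _ _ => Finset.mem_univ _)
        (fun k _ => Finset.mem_filter.2 ⟨Finset.mem_univ _, by
          rw [Subgroup.coe_mul, mul_smul]; exact congrArg _ k.2.2.2⟩)
        (fun n _ => Subtype.ext (by simp)) (fun k _ => Subtype.ext (by simp))
      rename_i h
      rw [Finset.mem_filter] at h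
      show ((n₀⁻¹ * n : S.K z x) : G) • y = y
      rw [Subgroup.coe_mul, Subgroup.coe_inv, mul_smul, h.2, inv_smul_smul]
  have hqpos : 0 < q := by have := S.two_le_O hab; omega
  have hκM : Nat.card (S.K a b) = q * Nat.card M := by
    rw [← hκ a (S.left_mem_flat a b),
      hindex a (S.left_mem_flat a b) b (S.right_mem_flat a b) hab]
  have hmeet : ∀ x ∈ S.flat a b, ∀ y ∈ S.flat a b, x ≠ y → S.K z x ⊓ S.K z y = M := by
    intro x hx y hy hxy
    refine (le_eq (le_inf (hMle x hx) (hMle y hy)) (le_of_eq ?_)).symm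
    apply Nat.eq_of_mul_eq_mul_left hqpos
    rw [← hindex x hx y hy hxy, hκ x hx, hκM]
  have hNz : Nat.card (S.N z) = q * (q * Nat.card M) := by
    rw [S.card_N_eq hza, S.card_O hza hab, S.card_K hza hab, ← hκM]
  let T : X → Finset G := fun x => Finset.univ.filter fun g => g ∈ S.K z x ∧ g ∉ M
  have hT : ∀ x ∈ S.flat a b, (T x).card + Nat.card M = q * Nat.card M := by
    intro x hx
    rw [← hκM, ← hκ x hx, Nat.card_eq_fintype_card, Nat.card_eq_fintype_card, Fintype.card_subtype,
      Fintype.card_subtype, ← Finset.card_union_of_disjoint]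
    · congr 1
      ext g
      simp only [T, Finset.mem_union, Finset.mem_filter, Finset.mem_univ, true_and]
      exact ⟨fun h => h.elim (fun h => h.1) (fun h => hMle x hx h), fun h => by tauto⟩
    · rw [Finset.disjoint_left]
      simp only [T, Finset.mem_filter, Finset.mem_univ, true_and]
      exact fun g h h' => h.2 h'
  have hdisj : ∀ x ∈ S.flat a b, ∀ y ∈ S.flat a b, x ≠ y → Disjoint (T x) (T y) := by
    intro x hx y hy hxy
    rw [Finset.disjoint_left]
    simp only [T, Finset.mem_filter, Finset.mem_univ, true_and]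
    exact fun g h h' => h.2 (hmeet x hx y hy hxy ▸ (⟨h.1, h'.1⟩ : g ∈ S.K z x ⊓ S.K z y))
  have hbig : ((S.flat a b).biUnion T).card + Nat.card M ≤ Nat.card (S.N z) := by
    rw [Nat.card_eq_fintype_card, Nat.card_eq_fintype_card, Fintype.card_subtype, Fintype.card_subtype,
      ← Finset.card_union_of_disjoint]
    · refine Finset.card_le_card fun g hg => ?_
      simp only [T, Finset.mem_union, Finset.mem_biUnion, Finset.mem_filter, Finset.mem_univ,
        true_and] at hg ⊢
      rcases hg with ⟨x, -, h, -⟩ | h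
      · exact h.1
      · exact h.1.1
    · rw [Finset.disjoint_left]
      simp only [T, Finset.mem_biUnion, Finset.mem_filter, Finset.mem_univ, true_and]
      rintro g ⟨x, -, -, h⟩ h'
      exact h h'
  rw [Finset.card_biUnion hdisj, hNz] at hbig
  have hsum : ∑ x ∈ S.flat a b, ((T x).card + Nat.card M) = (S.flat a b).card * (q * Nat.card M) :=
    Finset.sum_const_nat hT
  rw [Finset.sum_add_distrib, Finset.sum_const, smul_eq_mul] at hsum
  have hMpos : 0 < Nat.card M := Nat.card_pos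
  have hsub := S.line_subset_flat hab
  refine (Finset.eq_of_subset_of_card_le hsub ?_).symm
  rw [S.card_line hab, ← hq]
  by_contra hgt
  push Not at hgt
  obtain ⟨t, ht⟩ : ∃ t, (S.flat a b).card = q + 2 + t := ⟨_, (Nat.add_sub_cancel' hgt).symm⟩
  obtain ⟨q', hq'⟩ : ∃ q', q = q' + 2 :=
    ⟨_, (Nat.sub_add_cancel (S.two_le_O hab)).symm⟩
  rw [ht, hq'] at hsum
  rw [hq'] at hbig
  obtain ⟨μ, hμ⟩ : ∃ μ, Nat.card M = μ + 1 := ⟨_, (Nat.sub_add_cancel hMpos).symm⟩
  rw [hμ] at hsum hbig
  generalize (∑ x ∈ S.flat a b, (T x).card) = σ at hsum hbig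
  nlinarith [Nat.zero_le (q' * μ), Nat.zero_le (q' * t * (μ + 1)), Nat.zero_le (t * μ)]

/-- `K a x` moves the points off the line. -/
theorem exists_moving {a x y : X} (hax : a ≠ x) (hy : y ∉ S.line a x) :
    ∃ k ∈ S.K a x, k • y ≠ y := by
  by_contra h
  push Not at h
  rw [← S.flat_eq_line hax] at hy
  exact hy (S.mem_flat.2 h)

/-- **Veblen.** -/
theorem veblen {a x y w y' : X} (hax : a ≠ x) (hy : y ∉ S.line a x) (hw : w ∈ S.line a x)
    (hwa : w ≠ a) (hwx : w ≠ x) (hy' : y' ∈ S.line a y) (hy'a : y' ≠ a) :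
    ∃ R ∈ S.line x y, R ∈ S.line w y' := by
  have hay : a ≠ y := fun e => hy (e ▸ S.left_mem_line a x)
  have hxy : x ≠ y := fun e => hy (e ▸ S.right_mem_line hax)
  rw [S.line_eq_insert hay, Finset.mem_insert] at hy'
  obtain ⟨k, hk, hky⟩ := S.exists_moving hax hy
  obtain ⟨a₀, ha₀, ha₀y⟩ := S.trans_self hax hk hky (hy'.resolve_left hy'a)
  have hw' : w ∈ S.O x a := by
    have h := hw
    rw [S.line_symm hax, S.line_eq_insert hax.symm, Finset.mem_insert] at h
    exact h.resolve_left hwx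
  obtain ⟨m, hm, hma⟩ := S.mem_O.1 hw'
  set c := a₀ * m * a₀⁻¹ * m⁻¹ with hc
  have hcN : c ∈ S.N x :=
    (S.N x).mul_mem (S.conj_fix ha₀.2 hm) ((S.N x).inv_mem hm)
  set b₀ := m * a₀⁻¹ * m⁻¹ with hb₀
  have hb₀w : b₀ ∈ S.N w := by
    have := S.conj m a a₀⁻¹ ((S.N a).inv_mem ha₀.1)
    rwa [hma] at this
  refine ⟨c • y, S.centre_line hcN hxy, ?_⟩
  have hcb : c = a₀ * b₀ := by rw [hc, hb₀]; group
  have hwy : w ≠ y := fun e => hy (e ▸ hw)
  have h1 := S.smul_mem_line a₀ hwy (S.centre_line hb₀w hwy)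
  rw [S.U_fix hax hw (S.K_le_U a x ha₀), ha₀y, ← mul_smul, ← hcb] at h1
  exact h1

variable {a b : X} {n : G}

/-- The fixed points of an element of `N a` form a subspace. -/
theorem fixed_line {n : G} (hn : n ∈ S.N a) {x y z : X} (hxy : x ≠ y) (hx : n • x = x) (hy : n • y = y)
    (hz : z ∈ S.line x y) : n • z = z := by
  by_cases haz : a = z
  · subst haz; exact S.le a n hn
  have h1 := S.centre_line hn haz
  have h2 := S.smul_mem_line n hxy hz
  rw [hx, hy] at h2
  by_contra hne
  have e : S.line a z = S.line x y := by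
    rw [← S.line_eq haz h1 (S.right_mem_line haz) hne, S.line_eq hxy h2 hz hne]
  have hal : a ∈ S.line x y := e ▸ S.left_mem_line a z
  by_cases hax : a = x
  · subst hax
    exact hne (S.U_fix hxy hz (S.K_le_U a y ⟨hn, hy⟩))
  · have e2 := S.line_eq hxy hal (S.left_mem_line x y) hax
    exact hne (S.U_fix hax (e2.symm ▸ hz) (S.K_le_U a x ⟨hn, hx⟩))

/-- Every line has a fixed point. -/
theorem fixed_meets {n : G} (hn : n ∈ S.N a) {u w : X} (huw : u ≠ w) :
    ∃ R ∈ S.line u w, n • R = R := by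
  by_contra hcon
  push Not at hcon
  have hal : a ∉ S.line u w := fun h => hcon a h (S.le a n hn)
  have hu := hcon u (S.left_mem_line u w)
  have hw := hcon w (S.right_mem_line huw)
  have hau : a ≠ u := fun e => hal (e ▸ S.left_mem_line u w)
  have haw : a ≠ w := fun e => hal (by rw [e]; exact S.right_mem_line huw)
  have hwl : w ∉ S.line a u := fun h => hal (by
    rw [S.line_eq hau (S.right_mem_line hau) h huw]; exact S.left_mem_line a u)
  obtain ⟨R, hR, hR'⟩ := S.veblen hau hwl (S.centre_line hn hau)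
    (fun e => hau (MulAction.injective n ((S.le a n hn).trans e.symm))) hu (S.centre_line hn haw)
    (fun e => haw (MulAction.injective n ((S.le a n hn).trans e.symm)))
  have hne := hcon R hR
  have haR : a ≠ R := fun e => hal (e ▸ hR)
  have hnuw : n • u ≠ n • w := fun e => huw (MulAction.injective n e)
  have h1 := S.smul_mem_line n huw hR
  have h2 := S.centre_line hn haR
  have e : S.line a R = S.line (n • u) (n • w) := by
    rw [← S.line_eq haR h2 (S.right_mem_line haR) hne, S.line_eq hnuw h1 hR' hne]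
  have h3 := S.smul_mem_line n⁻¹ hnuw (e ▸ S.left_mem_line a R)
  rw [inv_smul_smul, inv_smul_smul, inv_smul_eq_iff.2 (S.le a n hn).symm] at h3
  exact hal h3

end AbSys

end CfsgLib.MetacyclicP.ONanAbelian
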