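import Cfsg.Agent.Lib.MetacyclicP.ONanAbelian.Setup

/-!
# The linear space
-/

set_option autoImplicit false
set_option linter.unusedSectionVars false
set_option linter.style.haveILetI false
set_option maxHeartbeats 800000

namespace CfsgLib.MetacyclicP.ONanAbelian

namespace AbSys

variable {G X : Type*} [Group G] [Fintype G] [MulAction G X] [Fintype X] (S : AbSys G X)

open scoped Classical

theorem K_commute {a b : X} {k m : G} (hk : k ∈ S.K a b) (hm : m ∈ S.K b a) : k * m = m * k :=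
  S.commute hk.1 hm.1 hk.2 hm.2

/-- The product of the two kernels. -/
def U (a b : X) : Subgroup G where
  carrier := {g | ∃ k ∈ S.K a b, ∃ m ∈ S.K b a, g = k * m}
  one_mem' := ⟨1, (S.K a b).one_mem, 1, (S.K b a).one_mem, (one_mul 1).symm⟩
  mul_mem' := by
    rintro _ _ ⟨k, hk, m, hm, rfl⟩ ⟨k', hk', m', hm', rfl⟩
    refine ⟨k * k', (S.K a b).mul_mem hk hk', m * m', (S.K b a).mul_mem hm hm', ?_⟩
    rw [mul_assoc, ← mul_assoc m, ← S.K_commute hk' hm]
    group
  inv_mem' := by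
    rintro _ ⟨k, hk, m, hm, rfl⟩
    refine ⟨k⁻¹, (S.K a b).inv_mem hk, m⁻¹, (S.K b a).inv_mem hm, ?_⟩
    rw [mul_inv_rev, S.K_commute ((S.K a b).inv_mem hk) ((S.K b a).inv_mem hm)]

theorem mem_U {a b : X} {g : G} : g ∈ S.U a b ↔ ∃ k ∈ S.K a b, ∃ m ∈ S.K b a, g = k * m := Iff.rfl

theorem K_le_U (a b : X) : S.K a b ≤ S.U a b := fun k hk =>
  ⟨k, hk, 1, (S.K b a).one_mem, (mul_one k).symm⟩

theorem K_le_U' (a b : X) : S.K b a ≤ S.U a b := fun m hm =>
  ⟨1, (S.K a b).one_mem, m, hm, (one_mul m).symm⟩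

theorem U_symm (a b : X) : S.U a b = S.U b a := by
  ext g
  constructor <;> rintro ⟨k, hk, m, hm, rfl⟩ <;> exact ⟨m, hm, k, hk, S.K_commute hk hm⟩

theorem U_fix_left {a b : X} {g : G} (hg : g ∈ S.U a b) : g • a = a := by
  obtain ⟨k, hk, m, hm, rfl⟩ := hg
  rw [mul_smul, show m • a = a from hm.2, S.le a k hk.1]

theorem U_fix_right {a b : X} {g : G} (hg : g ∈ S.U a b) : g • b = b :=
  S.U_fix_left (S.U_symm a b ▸ hg)

theorem U_comm {a b : X} {g h : G} (hg : g ∈ S.U a b) (hh : h ∈ S.U a b) : g * h = h * g := by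
  obtain ⟨k, hk, m, hm, rfl⟩ := hg
  obtain ⟨k', hk', m', hm', rfl⟩ := hh
  have e1 : Commute k k' := S.comm a k hk.1 k' hk'.1
  have e2 : Commute k m' := S.K_commute hk hm'
  have e3 : Commute m k' := (S.K_commute hk' hm).symm
  have e4 : Commute m m' := S.comm b m hm.1 m' hm'.1
  exact (e1.mul_right e2).mul_left (e3.mul_right e4)

theorem card_U {a b : X} (h : a ≠ b) :
    Nat.card (S.U a b) = Nat.card (S.K a b) * Nat.card (S.K b a) := by
  rw [← Nat.card_prod]
  refine (Nat.card_congr (Equiv.ofBijective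
    (fun p : S.K a b × S.K b a => (⟨p.1.1 * p.2.1, p.1.1, p.1.2, p.2.1, p.2.2, rfl⟩ : S.U a b))
    ⟨fun p p' hpp => ?_, fun g => ?_⟩)).symm
  · have e := congrArg Subtype.val hpp
    simp only at e
    have e' : p'.1.1⁻¹ * p.1.1 = p'.2.1 * p.2.1⁻¹ := by
      rw [inv_mul_eq_iff_eq_mul, ← mul_assoc, eq_mul_inv_iff_mul_eq, e]
    have h1 := S.ti h ((S.N a).mul_mem ((S.N a).inv_mem p'.1.2.1) p.1.2.1)
      (by rw [e']; exact (S.N b).mul_mem p'.2.2.1 ((S.N b).inv_mem p.2.2.1))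
    have h2 : p.1.1 = p'.1.1 := (inv_mul_eq_one.1 h1).symm
    refine Prod.ext (Subtype.ext h2) (Subtype.ext ?_)
    rw [h2] at e
    exact mul_left_cancel e
  · obtain ⟨g, k, hk, m, hm, rfl⟩ := g
    exact ⟨(⟨k, hk⟩, ⟨m, hm⟩), rfl⟩

theorem card_U_eq {a b c d : X} (h : a ≠ b) (h' : c ≠ d) :
    Nat.card (S.U a b) = Nat.card (S.U c d) := by
  rw [S.card_U h, S.card_U h', S.card_K h h', S.card_K h.symm h'.symm]

theorem le_eq {H L : Subgroup G} (hle : H ≤ L) (hcard : Nat.card L ≤ Nat.card H) : H = L :=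
  SetLike.coe_injective (Set.eq_of_subset_of_ncard_le hle
    (by rw [← Nat.card_coe_set_eq, ← Nat.card_coe_set_eq]; exact hcard) (Set.toFinite _))

/-- The line of two points. -/
noncomputable def line (a b : X) : Finset X :=
  Finset.univ.filter fun γ => Nat.card (S.K a b) ≤ Nat.card (S.N γ ⊓ S.U a b : Subgroup G)

theorem mem_line {a b γ : X} :
    γ ∈ S.line a b ↔ Nat.card (S.K a b) ≤ Nat.card (S.N γ ⊓ S.U a b : Subgroup G) := by
  simp [line]

theorem left_mem_line (a b : X) : a ∈ S.line a b :=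
  S.mem_line.2 (Subgroup.card_le_of_le (le_inf inf_le_left (S.K_le_U a b)))

theorem right_mem_line {a b : X} (h : a ≠ b) : b ∈ S.line a b :=
  S.mem_line.2 (le_trans (le_of_eq (S.card_K h h.symm))
    (Subgroup.card_le_of_le (le_inf inf_le_left (S.K_le_U' a b))))

theorem U_fix {a b γ : X} (hab : a ≠ b) (hγ : γ ∈ S.line a b) {u : G} (hu : u ∈ S.U a b) :
    u • γ = γ := by
  have h1 : 1 < Nat.card (S.N γ ⊓ S.U a b : Subgroup G) := by
    refine lt_of_lt_of_le ?_ (S.mem_line.1 hγ)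
    obtain ⟨k, hk, hk1⟩ := S.K_ne_bot hab
    exact Finite.one_lt_card_iff_nontrivial.2
      (nontrivial_of_ne (⟨k, hk⟩ : S.K a b) 1 (fun e => hk1 (congrArg Subtype.val e)))
  haveI := Finite.one_lt_card_iff_nontrivial.1 h1
  obtain ⟨w, hw⟩ := exists_ne (1 : (S.N γ ⊓ S.U a b : Subgroup G))
  exact S.fix_of_commute w.2.1 (fun e => hw (Subtype.ext e)) (S.U_comm hu w.2.2)

/-- A point of the line spans it with `a`. -/
theorem U_eq {a b γ : X} (hab : a ≠ b) (hγ : γ ∈ S.line a b) (hne : γ ≠ a) :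
    S.U a γ = S.U a b := by
  have e1 : S.K a b = S.K a γ := le_eq (fun k hk => ⟨hk.1, S.U_fix hab hγ (S.K_le_U a b hk)⟩)
    (le_of_eq (S.card_K hne.symm hab))
  have e2 : S.N γ ⊓ S.U a b = S.K γ a := le_eq (fun k hk => ⟨hk.1, S.U_fix_left hk.2⟩)
    (le_trans (le_of_eq (S.card_K hne hab)) (S.mem_line.1 hγ))
  refine le_eq ?_ (le_of_eq (S.card_U_eq hab hne.symm))
  rintro _ ⟨k, hk, m, hm, rfl⟩
  rw [← e1] at hk
  rw [← e2] at hm
  exact (S.U a b).mul_mem (S.K_le_U a b hk) hm.2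

theorem line_symm {a b : X} (h : a ≠ b) : S.line a b = S.line b a := by
  ext γ
  rw [mem_line, mem_line, S.U_symm a b, S.card_K h h.symm]

theorem line_eq_left {a b γ : X} (hab : a ≠ b) (hγ : γ ∈ S.line a b) (hne : γ ≠ a) :
    S.line a γ = S.line a b := by
  ext δ
  rw [mem_line, mem_line, S.U_eq hab hγ hne, S.card_K hne.symm hab]

/-- A line is determined by any two of its points. -/
theorem line_eq {a b x y : X} (hab : a ≠ b) (hx : x ∈ S.line a b) (hy : y ∈ S.line a b) (hxy : x ≠ y) :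
    S.line x y = S.line a b := by
  by_cases hxa : x = a
  · subst hxa; exact S.line_eq_left hab hy hxy.symm
  have e1 := S.line_eq_left hab hx hxa
  rw [S.line_symm (Ne.symm hxa)] at e1
  rw [S.line_eq_left hxa (e1.symm ▸ hy) hxy.symm, e1]

theorem O_subset {a b : X} (hab : a ≠ b) : S.O a b ⊆ S.line a b := by
  intro γ hγ
  obtain ⟨n, hn, rfl⟩ := S.mem_O.1 hγ
  have h2 : a ≠ n • b := fun e => S.left_notMem_O hab (e ▸ hγ)
  rw [mem_line, S.card_K hab h2.symm]
  refine Subgroup.card_le_of_le fun m' hm' => ⟨hm'.1, ?_⟩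
  have hm : n⁻¹ * m' * n ∈ S.K b a := by
    have := S.K_conj n⁻¹ hm'
    rwa [inv_smul_smul, inv_inv, show n⁻¹ • a = a by rw [inv_smul_eq_iff, S.le a n hn]] at this
  set m := n⁻¹ * m' * n with hm_def
  refine ⟨n * (m * n⁻¹ * m⁻¹), ⟨?_, ?_⟩, m, hm, by rw [hm_def]; group⟩
  · exact (S.N a).mul_mem hn (S.conj_fix hm.2 ((S.N a).inv_mem hn))
  · have hb : n⁻¹ • b ∈ S.O a b := S.mem_O.2 ⟨n⁻¹, (S.N a).inv_mem hn, rfl⟩
    show (n * (m * n⁻¹ * m⁻¹)) • b = b
    rw [mul_smul, mul_smul, mul_smul,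
      show m⁻¹ • b = b by rw [inv_smul_eq_iff, S.le b m hm.1], S.K_fix_O' hab hb hm, smul_inv_smul]

theorem mem_line_of_centre {z z' c : X} (h : z ≠ z') (hc : c ∈ S.centres z z') :
    c ∈ S.line z z' := by
  have h1 := S.centres_ne h hc
  have h2 := S.O_subset h1 (S.mem_centres.1 hc)
  rw [S.line_eq h1 (S.right_mem_line h1) h2 h]
  exact S.left_mem_line c z

theorem K_eq_of_mem {a b γ : X} (hab : a ≠ b) (hγ : γ ∈ S.line a b) (hne : γ ≠ a) :
    S.K a γ = S.K a b :=
  (le_eq (H := S.K a b) (L := S.K a γ) (fun _ hk => ⟨hk.1, S.U_fix hab hγ (S.K_le_U a b hk)⟩)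
    (le_of_eq (S.card_K hne.symm hab))).symm

/-- The main counting lemma. -/
theorem line_and_trans {a b z : X} (hab : a ≠ b) {k : G} (hk : k ∈ S.K a b) (hkz : k • z ≠ z) :
    S.line a b = insert a (S.O a b) ∧ ∀ w ∈ S.O b z, ∃ m ∈ S.K b a, m • z = w := by
  have hzC : z ∉ S.line a b := fun h => hkz (S.U_fix hab h (S.K_le_U a b hk))
  have hbz : b ≠ z := fun e => hzC (e ▸ S.right_mem_line hab)
  have hex : ∀ c, ∃ m, c ∈ (S.line a b).erase b → m ∈ S.K b a ∧ k * m ∈ S.N c := by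
    intro c
    by_cases hc : c ∈ (S.line a b).erase b
    swap
    · exact ⟨1, fun h => absurd h hc⟩
    rw [Finset.mem_erase] at hc
    let f : (S.N c ⊓ S.U a b : Subgroup G) → S.K a b := fun u =>
      ⟨(S.mem_U.1 u.2.2).choose, (S.mem_U.1 u.2.2).choose_spec.1⟩
    have hf : ∀ u : (S.N c ⊓ S.U a b : Subgroup G), ∃ m ∈ S.K b a, (u : G) = (f u : G) * m := fun u =>
      (S.mem_U.1 u.2.2).choose_spec.2
    have hinj : Function.Injective f := by
      intro u v h
      obtain ⟨m, hm, hu⟩ := hf u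
      obtain ⟨m', hm', hv⟩ := hf v
      rw [h] at hu
      have h1 : (v : G)⁻¹ * u = m'⁻¹ * m := by rw [hu, hv]; group
      have h2 := S.ti (Ne.symm hc.1) (show (v : G)⁻¹ * u ∈ S.N b from
        h1 ▸ (S.N b).mul_mem ((S.N b).inv_mem hm'.1) hm.1)
        ((S.N c).mul_mem ((S.N c).inv_mem v.2.1) u.2.1)
      exact Subtype.ext (inv_mul_eq_one.1 h2).symm
    obtain ⟨u, hu⟩ := (hinj.bijective_of_nat_card_le (S.mem_line.1 hc.2)).2 ⟨k, hk⟩
    obtain ⟨m, hm, hum⟩ := hf u
    rw [hu] at hum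
    exact ⟨m, fun _ => ⟨hm, by rw [← hum]; exact u.2.1⟩⟩
  choose f hf using hex
  have hmap : ∀ c ∈ (S.line a b).erase b, f c • z ∈ S.O b z := fun c hc =>
    S.mem_O.2 ⟨f c, (hf c hc).1.1, rfl⟩
  have hinj : Set.InjOn (fun c => f c • z) (↑((S.line a b).erase b) : Set X) := by
    intro c hc c' hc' he
    simp only at he
    by_contra hne
    have hmem : ∀ d ∈ (S.line a b).erase b, f d • z = f c • z → d ∈ S.centres z (k • f c • z) :=
      fun d hd h => S.mem_centres.2 (S.mem_O.2 ⟨k * f d, (hf d hd).2, by rw [mul_smul, h]⟩)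
    by_cases hz' : z = k • f c • z
    · have h1 : k⁻¹ • z = f c • z := inv_smul_eq_iff.2 hz'
      have hzz : z ≠ k⁻¹ • z := fun e => hkz (by rw [eq_inv_smul_iff] at e; exact e)
      have ha := S.mem_line_of_centre hzz
        (S.mem_centres.2 (S.mem_O.2 ⟨k⁻¹, (S.N a).inv_mem hk.1, rfl⟩) : a ∈ S.centres z (k⁻¹ • z))
      have hb := S.mem_line_of_centre hzz
        (S.mem_centres.2 (S.mem_O.2 ⟨f c, (hf c hc).1.1, h1.symm⟩) : b ∈ S.centres z (k⁻¹ • z))
      exact hzC (S.line_eq hzz ha hb hab ▸ S.left_mem_line z _)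
    · have h1 := S.mem_line_of_centre hz' (hmem c hc rfl)
      have h2 := S.mem_line_of_centre hz' (hmem c' hc' he.symm)
      apply hzC
      have e := S.line_eq hz' h1 h2 hne
      rw [S.line_eq hab (Finset.mem_of_mem_erase hc) (Finset.mem_of_mem_erase hc') hne] at e
      exact e ▸ S.left_mem_line z _
  have hle : ((S.line a b).erase b).card ≤ (S.O b z).card :=
    Finset.card_le_card_of_injOn _ hmap hinj
  rw [Finset.card_erase_of_mem (S.right_mem_line hab), S.card_O hbz hab] at hle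
  have hsub : insert a (S.O a b) ⊆ S.line a b :=
    Finset.insert_subset (S.left_mem_line a b) (S.O_subset hab)
  have hcard : (insert a (S.O a b)).card = (S.O a b).card + 1 :=
    Finset.card_insert_of_notMem (S.left_notMem_O hab)
  have heq : insert a (S.O a b) = S.line a b := Finset.eq_of_subset_of_card_le hsub (by omega)
  refine ⟨heq.symm, fun w hw => ?_⟩
  have himg : ((S.line a b).erase b).image (fun c => f c • z) = S.O b z := by
    refine Finset.eq_of_subset_of_card_le (fun x hx => ?_) ?_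
    · obtain ⟨c, hc, rfl⟩ := Finset.mem_image.1 hx
      exact hmap c hc
    · rw [Finset.card_image_of_injOn hinj, Finset.card_erase_of_mem (S.right_mem_line hab), ← heq,
        hcard, S.card_O hbz hab]
      omega
  rw [← himg] at hw
  obtain ⟨c, hc, rfl⟩ := Finset.mem_image.1 hw
  exact ⟨f c, (hf c hc).1, rfl⟩

theorem exists_moved {a b : X} (hab : a ≠ b) : ∃ k ∈ S.K a b, ∃ z : X, k • z ≠ z := by
  obtain ⟨k, hk, hk1⟩ := S.K_ne_bot hab
  by_contra h
  push Not at h
  exact hk1 (S.faithful k (h k hk))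

theorem line_eq_insert {a b : X} (hab : a ≠ b) : S.line a b = insert a (S.O a b) := by
  obtain ⟨k, hk, z, hz⟩ := S.exists_moved hab
  exact (S.line_and_trans hab hk hz).1

theorem card_line {a b : X} (hab : a ≠ b) : (S.line a b).card = (S.O a b).card + 1 := by
  rw [S.line_eq_insert hab, Finset.card_insert_of_notMem (S.left_notMem_O hab)]

/-- `K b a` is transitive on the line of `b` and a point moved by `K a b`. -/
theorem trans_of_moved {a b z : X} (hab : a ≠ b) {k : G} (hk : k ∈ S.K a b) (hkz : k • z ≠ z)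
    {w : X} (hw : w ∈ S.O b z) : ∃ m ∈ S.K b a, m • z = w :=
  (S.line_and_trans hab hk hkz).2 w hw

theorem smul_mem_line (g : G) {a b z : X} (hab : a ≠ b) (hz : z ∈ S.line a b) :
    g • z ∈ S.line (g • a) (g • b) := by
  have hne : g • a ≠ g • b := fun e => hab (MulAction.injective g e)
  rw [S.line_eq_insert hab, Finset.mem_insert] at hz
  rw [S.line_eq_insert hne, Finset.mem_insert]
  rcases hz with rfl | hz
  · exact Or.inl rfl
  · exact Or.inr (S.smul_mem_O g hz)

/-- Elements of `N a` fix every line through `a`. -/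
theorem centre_line {a z : X} {n : G} (hn : n ∈ S.N a) (haz : a ≠ z) : n • z ∈ S.line a z :=
  S.O_subset haz (S.mem_O.2 ⟨n, hn, rfl⟩)

theorem two_on_line {x y u v : X} (hxy : x ≠ y) (hu : u ∈ S.line x y) (hv : v ∈ S.line x y) {r : X}
    (hr : r ∉ S.line x y) (hu' : u ∈ S.line r v) (hrv : r ≠ v) : u = v := by
  by_contra hne
  apply hr
  rw [← S.line_eq hxy hu hv hne, S.line_eq hrv hu' (S.right_mem_line hrv) hne]
  exact S.left_mem_line r v

end AbSys

end CfsgLib.MetacyclicP.ONanAbelian
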