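import Cfsg.Agent.Lib.MetacyclicP.ONanAbelian.Geometry
import Cfsg.Agent.Lib.MetacyclicP.ItoDesign.Group

/-!
# The hyperplanes form a symmetric design
-/

set_option autoImplicit false
set_option linter.unusedSectionVars false
set_option linter.style.haveILetI false
set_option maxHeartbeats 800000

open scoped Pointwise

namespace CfsgLib.MetacyclicP.ONanAbelian

/-- A relation whose Gram matrix is `(d - e) I + e J` with `e < d` has at least as many columns as rows. -/
theorem card_le_of_gram {A B : Type*} [Fintype A] [Fintype B] (M : A → B → Prop) {d e : ℕ} (hed : e < d)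
    (hd : ∀ i, Nat.card {y // M i y} = d)
    (he : ∀ i j, i ≠ j → Nat.card {y // M i y ∧ M j y} = e) :
    Fintype.card A ≤ Fintype.card B := by
  classical
  let f : (A → ℚ) →ₗ[ℚ] (B → ℚ) :=
    { toFun := fun v y => ∑ i, if M i y then v i else 0
      map_add' := fun u v => by funext y; simp [Finset.sum_add_distrib, ← Finset.sum_add_distrib, ite_add_zero]
      map_smul' := fun c v => by funext y; simp [Finset.mul_sum, mul_ite] }
  have hinj : Function.Injective f := by
    rw [injective_iff_map_eq_zero]
    intro v hv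
    have key : ∀ j, ((d : ℚ) - e) * v j + e * ∑ i, v i = 0 := by
      intro j
      have h0 : (∑ y, if M j y then f v y else 0) = 0 := by simp [hv]
      have h1 : (∑ y, if M j y then f v y else 0) =
          ∑ i, (Nat.card {y // M j y ∧ M i y} : ℚ) * v i := by
        simp only [f, LinearMap.coe_mk, AddHom.coe_mk]
        rw [Finset.sum_congr rfl fun y _ => show (if M j y then ∑ i, (if M i y then v i else 0) else 0) =
          ∑ i, if M j y ∧ M i y then v i else 0 from by by_cases h : M j y <;> simp [h]]
        rw [Finset.sum_comm]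
        refine Finset.sum_congr rfl fun i _ => ?_
        rw [← Finset.sum_filter, Finset.sum_const, nsmul_eq_mul, Nat.card_eq_fintype_card,
          Fintype.card_subtype]
      rw [h1, ← Finset.add_sum_erase _ _ (Finset.mem_univ j)] at h0
      rw [show Nat.card {y // M j y ∧ M j y} = d from
        (Nat.card_congr (Equiv.subtypeEquivRight fun y => and_self_iff)).trans (hd j),
        Finset.sum_congr rfl fun i (hi : i ∈ (Finset.univ : Finset A).erase j) => show
          (Nat.card {y // M j y ∧ M i y} : ℚ) * v i = (e : ℚ) * v i from by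
            rw [he j i (Finset.ne_of_mem_erase hi).symm],
        ← Finset.mul_sum, Finset.sum_erase_eq_sub (Finset.mem_univ j)] at h0
      linear_combination h0
    have hde : (0 : ℚ) < (d : ℚ) - e := by
      have : (e : ℚ) < d := by exact_mod_cast hed
      linarith
    have hS : ((d : ℚ) - e + e * Fintype.card A) * ∑ i, v i = 0 := by
      have := Finset.sum_eq_zero (s := (Finset.univ : Finset A)) fun j _ => key j
      rw [Finset.sum_add_distrib, ← Finset.mul_sum, Finset.sum_const, nsmul_eq_mul,
        Finset.card_univ] at this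
      linear_combination this
    have h4 : (0 : ℚ) < (d : ℚ) - e + e * Fintype.card A := by positivity
    funext j
    have := key j
    rw [(mul_eq_zero.1 hS).resolve_left h4.ne', mul_zero, add_zero] at this
    exact (mul_eq_zero.1 this).resolve_left hde.ne'
  simpa using LinearMap.finrank_le_finrank_of_injective hinj

namespace AbSys

variable {G X : Type*} [Group G] [Fintype G] [MulAction G X] [Fintype X] (S : AbSys G X)

open scoped Classical

/-- A hyperplane: a subspace meeting every line. -/
def IsHyp (F : Set X) : Prop :=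
  (∀ x ∈ F, ∀ y ∈ F, x ≠ y → ∀ z ∈ S.line x y, z ∈ F) ∧ ∀ u w, u ≠ w → ∃ R ∈ S.line u w, R ∈ F

theorem isHyp_smul {F : Set X} (hF : S.IsHyp F) (g : G) : S.IsHyp (g • F) := by
  constructor
  · intro x hx y hy hxy z hz
    rw [Set.mem_smul_set_iff_inv_smul_mem] at hx hy ⊢
    exact hF.1 _ hx _ hy (fun e => hxy (MulAction.injective g⁻¹ e)) _ (S.smul_mem_line g⁻¹ hxy hz)
  · intro u w huw
    have hne : g⁻¹ • u ≠ g⁻¹ • w := fun e => huw (MulAction.injective g⁻¹ e)
    obtain ⟨R, hR, hRF⟩ := hF.2 _ _ hne
    refine ⟨g • R, ?_, Set.smul_mem_smul_set hRF⟩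
    have := S.smul_mem_line g hne hR
    rwa [smul_inv_smul, smul_inv_smul] at this

theorem card_line_const {x y a b : X} (h : x ≠ y) (hab : a ≠ b) :
    (S.line x y).card = (S.O a b).card + 1 := by
  rw [S.card_line h, S.card_O h hab]

/-- Projection from a point off a hyperplane. -/
theorem hyp_count {F : Set X} (hF : S.IsHyp F) {z : X} (hz : z ∉ F) (A : Finset X) (hzA : z ∈ A)
    (hA : ∀ x ∈ A, x ≠ z → S.line z x ⊆ A) {a b : X} (hab : a ≠ b) :
    A.card = (S.O a b).card * (A.filter fun x => x ∈ F).card + 1 := by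
  have hex : ∀ x, ∃ f, x ≠ z → f ∈ S.line z x ∧ f ∈ F := fun x => by
    by_cases h : x = z
    · exact ⟨z, fun hh => absurd h hh⟩
    · obtain ⟨R, hR, hRF⟩ := hF.2 z x (Ne.symm h); exact ⟨R, fun _ => ⟨hR, hRF⟩⟩
  choose f hf using hex
  rw [← Finset.card_erase_add_one hzA, Nat.add_right_cancel_iff,
    Finset.card_eq_sum_card_fiberwise (f := f) (t := A.filter fun x => x ∈ F) (fun x hx => by
      rw [Finset.mem_coe, Finset.mem_erase] at hx
      exact Finset.mem_coe.2 (Finset.mem_filter.2 ⟨hA x hx.2 hx.1 (hf x hx.1).1, (hf x hx.1).2⟩)),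
    Finset.sum_const_nat (m := (S.O a b).card), mul_comm]
  intro R hR
  rw [Finset.mem_filter] at hR
  have hRz : R ≠ z := fun e => hz (e ▸ hR.2)
  have he : ((A.erase z).filter fun x => f x = R) = (S.line z R).erase z := by
    ext x
    simp only [Finset.mem_filter, Finset.mem_erase]
    constructor
    · rintro ⟨⟨hxz, -⟩, he⟩
      refine ⟨hxz, ?_⟩
      rw [S.line_eq (Ne.symm hxz) (S.left_mem_line z x) (he ▸ (hf x hxz).1) hRz.symm]
      exact S.right_mem_line (Ne.symm hxz)
    · rintro ⟨hxz, hx⟩
      refine ⟨⟨hxz, hA R hR.1 hRz hx⟩, ?_⟩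
      by_contra hne
      have hl := S.line_eq hRz.symm (S.left_mem_line z R) hx (Ne.symm hxz)
      have hfl : f x ∈ S.line z R := hl ▸ (hf x hxz).1
      have e2 := S.line_eq hRz.symm hfl (S.right_mem_line hRz.symm) hne
      exact hz (hF.1 _ (hf x hxz).2 _ hR.2 hne z (e2.symm ▸ S.left_mem_line z R))
  rw [he, Finset.card_erase_of_mem (S.left_mem_line z R), S.card_line_const hRz.symm hab,
    Nat.add_sub_cancel]

include S in
theorem exists_psl : ∃ (m : ℕ) (K : Type) (_ : Field K) (_ : Fintype K), 2 ≤ m ∧
    Fintype.card X = (Fintype.card K ^ (m + 1) - 1) / (Fintype.card K - 1) ∧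
    ∃ N : Subgroup G, N.Normal ∧
      Nonempty (N ≃* Matrix.ProjectiveSpecialLinearGroup (Fin (m + 1)) K) ∧
      Subgroup.centralizer (N : Set G) = ⊥ := by
  obtain ⟨a, b, hab, n, hn, hn1, hnb⟩ := S.ns
  set q := (S.O a b).card with hq
  have hq2 : 2 ≤ q := S.two_le_O hab
  let F : Set X := {x | n • x = x}
  have hFh : S.IsHyp F :=
    ⟨fun x hx y hy hxy z hz => S.fixed_line hn hxy hx hy hz, fun u w h => S.fixed_meets hn h⟩
  obtain ⟨z₀, hz₀⟩ : ∃ z, z ∉ F := by
    by_contra h
    push Not at h
    exact hn1 (S.faithful n h)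
  let Y := MulAction.orbit G F
  haveI : Fintype Y := Fintype.ofFinite _
  let M : X → Y → Prop := fun x y => x ∈ (y : Set X)
  have hM : ∀ (g : G) x y, M (g • x) (g • y) ↔ M x y := fun g x y => by
    show g • x ∈ g • (y : Set X) ↔ x ∈ (y : Set X)
    exact Set.smul_mem_smul_set_iff
  have hyp : ∀ y : Y, S.IsHyp (y : Set X) := fun y => by
    obtain ⟨g, hg⟩ := y.2
    rw [← hg]; exact S.isHyp_smul hFh g
  set k := Nat.card {x // x ∈ F} with hk
  have hky : ∀ y : Y, Nat.card {x // M x y} = k := fun y => by
    obtain ⟨g, hg⟩ := y.2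
    refine (Nat.card_congr (Equiv.subtypeEquiv (MulAction.toPerm g) fun x => ?_)).symm
    show x ∈ F ↔ g • x ∈ (y : Set X)
    rw [← hg]; exact Set.smul_mem_smul_set_iff.symm
  have hv : Fintype.card X = q * k + 1 := by
    rw [← Finset.card_univ, S.hyp_count hFh hz₀ Finset.univ (Finset.mem_univ _)
      (fun _ _ _ => Finset.subset_univ _) hab, hk, Nat.card_eq_fintype_card, Fintype.card_subtype]
  have hk2 : 2 ≤ k := by
    rw [hk, Nat.card_eq_fintype_card, Fintype.card_subtype]
    exact Finset.one_lt_card.2 ⟨a, by simpa [F] using S.le a n hn, b, by simpa [F] using hnb, hab⟩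
  have hinter : ∀ y y' : Y, y ≠ y' → q * Nat.card {x // M x y ∧ M x y'} + 1 = k := by
    intro y y' hne
    obtain ⟨z, hzy, hzy'⟩ : ∃ z, M z y ∧ ¬ M z y' := by
      by_contra h
      push Not at h
      refine hne (Subtype.ext (Set.eq_of_subset_of_ncard_le (fun x hx => h x hx) ?_ (Set.toFinite _)))
      rw [← Nat.card_coe_set_eq, ← Nat.card_coe_set_eq]
      exact le_of_eq ((hky y').trans (hky y).symm)
    have h := S.hyp_count (hyp y') hzy' (Finset.univ.filter fun x => M x y) (by simpa using hzy)
      (fun x hx hxz w hw => by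
        simp only [Finset.mem_filter, Finset.mem_univ, true_and] at hx ⊢
        exact (hyp y).1 z hzy x hx (Ne.symm hxz) w hw) hab
    rw [Finset.filter_filter, ← Fintype.card_subtype, ← Fintype.card_subtype,
      ← Nat.card_eq_fintype_card, ← Nat.card_eq_fintype_card, hky] at h
    exact h.symm
  have hY : MulAction.IsPretransitive G Y := inferInstance
  let y₀ : Y := ⟨F, MulAction.mem_orbit_self F⟩
  -- constant parameters
  obtain ⟨z', hz'⟩ : ∃ z', z' ≠ z₀ := ⟨a, fun e => hz₀ (e ▸ S.le a n hn)⟩
  have tr : ∀ x x' : X, ∃ g : G, g • x = x' := fun x x' => by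
    obtain ⟨u, hu⟩ := Fintype.exists_ne_of_one_lt_card
      (show 1 < Fintype.card X by rw [hv]; nlinarith) x
    obtain ⟨u', hu'⟩ := Fintype.exists_ne_of_one_lt_card
      (show 1 < Fintype.card X by rw [hv]; nlinarith) x'
    obtain ⟨g, hg, -⟩ := S.two x u x' u' hu.symm hu'.symm
    exact ⟨g, hg⟩
  set r := Nat.card {y : Y // M a y} with hr
  have hrx : ∀ x, Nat.card {y : Y // M x y} = r := fun x => by
    obtain ⟨g, rfl⟩ := tr a x
    exact (Nat.card_congr (Equiv.subtypeEquiv (MulAction.toPerm g) fun y => (hM g a y).symm)).symm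
  set l := Nat.card {y : Y // M a y ∧ M b y} with hl
  have hlx : ∀ x x', x ≠ x' → Nat.card {y : Y // M x y ∧ M x' y} = l := fun x x' h => by
    obtain ⟨g, rfl, rfl⟩ := S.two a b x x' hab h
    exact (Nat.card_congr (Equiv.subtypeEquiv (MulAction.toPerm g)
      fun y => (and_congr (hM g a y) (hM g b y)).symm)).symm
  have hlr : l < r := by
    have hle : ∀ x x', x ≠ x' → ∀ y : Y, l = r → M x y → M x' y := by
      intro x x' hne y he hxy
      have h1 : (Finset.univ.filter fun y : Y => M x y ∧ M x' y) = Finset.univ.filter fun y : Y => M x y := by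
        refine Finset.eq_of_subset_of_card_le (fun w hw => by simp at hw ⊢; exact hw.1) ?_
        rw [← Fintype.card_subtype, ← Fintype.card_subtype, ← Nat.card_eq_fintype_card,
          ← Nat.card_eq_fintype_card, hrx, hlx x x' hne, he]
      have : y ∈ Finset.univ.filter fun y : Y => M x y ∧ M x' y := by rw [h1]; simpa using hxy
      simp at this
      exact this.2
    have hle' : l ≤ r := by
      rw [hl, hr]
      exact Nat.card_le_card_of_injective (fun y => (⟨y.1, y.2.1⟩ : {y : Y // M a y}))
        (fun u w h => Subtype.ext (congrArg Subtype.val h :))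
    refine lt_of_le_of_ne hle' fun he => hz₀ ?_
    exact hle a z₀ (fun e => hz₀ (e ▸ S.le a n hn)) y₀ he (S.le a n hn)
  -- Fisher, both ways
  have hb1 : Fintype.card X ≤ Fintype.card Y := card_le_of_gram M hlr hrx hlx
  have hb2 : Fintype.card Y ≤ Fintype.card X := by
    by_cases hone : ∃ y y' : Y, y ≠ y'
    · obtain ⟨y, y', hne⟩ := hone
      refine card_le_of_gram (fun (y : Y) x => M x y) (d := k)
        (e := Nat.card {x // M x y ∧ M x y'}) ?_ hky ?_
      · have := hinter y y' hne
        nlinarith
      · intro i j hij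
        have h1 := hinter i j hij
        have h2 := hinter y y' hne
        exact Nat.eq_of_mul_eq_mul_left (by omega : 0 < q) (by omega)
    · push Not at hone
      have : Fintype.card Y ≤ 1 := Fintype.card_le_one_iff.2 hone
      have : 1 ≤ Fintype.card X := by rw [hv]; omega
      omega
  have hk' : Nat.card {x // M x y₀} + 2 ≤ Fintype.card X := by
    rw [hky, hv]; nlinarith
  obtain ⟨D, hD⟩ := ItoDesign.exists_design M hM hY S.two S.faithful (le_antisymm hb2 hb1) y₀
    (by rw [hky]; exact hk2) hk'
  refine D.exists_psl ⟨n, y₀, fun x hx => ?_, hn1⟩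
  rw [hD] at hx
  exact hx

end AbSys

end CfsgLib.MetacyclicP.ONanAbelian
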