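import Mathlib

/-!
# Abelian normal subgroups of point stabilisers in doubly transitive groups

Orbit counting gives the trivial intersection property, and the kernel of the action of `N a` on
the orbit of `b` is the fixator of the orbit of `a` under `N b`.
-/

set_option autoImplicit false
set_option linter.unusedSectionVars false
set_option linter.style.haveILetI false
set_option maxHeartbeats 800000

namespace CfsgLib.MetacyclicP.ONanAbelian

/-- A doubly transitive group with abelian `p`-subgroups normal in the point stabilisers. -/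
structure AbSys (G : Type*) [Group G] (X : Type*) [MulAction G X] where
  /-- the subgroups -/
  N : X → Subgroup G
  le : ∀ x, ∀ g ∈ N x, g • x = x
  conj : ∀ (g : G) x, ∀ n ∈ N x, g * n * g⁻¹ ∈ N (g • x)
  comm : ∀ x, ∀ a ∈ N x, ∀ b ∈ N x, a * b = b * a
  /-- the prime -/
  p : ℕ
  hp : p.Prime
  pgroup : ∀ x, IsPGroup p (N x)
  two : ∀ a b a' b' : X, a ≠ b → a' ≠ b' → ∃ g : G, g • a = a' ∧ g • b = b'
  faithful : ∀ g : G, (∀ x : X, g • x = x) → g = 1
  ns : ∃ a b, a ≠ b ∧ ∃ n ∈ N a, n ≠ 1 ∧ n • b = b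

namespace AbSys

variable {G X : Type*} [Group G] [Fintype G] [MulAction G X] [Fintype X] (S : AbSys G X)

open scoped Classical

theorem conj_mem (g : G) (x : X) {n : G} (hn : n ∈ S.N x) : g * n * g⁻¹ ∈ S.N (g • x) := S.conj g x n hn

theorem conj_fix {g : G} {x : X} (hg : g • x = x) {n : G} (hn : n ∈ S.N x) :
    g * n * g⁻¹ ∈ S.N x := by
  have := S.conj g x n hn
  rwa [hg] at this

/-- The kernel on an orbit. -/
def K (a b : X) : Subgroup G := S.N a ⊓ MulAction.stabilizer G b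

theorem mem_K {a b : X} {g : G} : g ∈ S.K a b ↔ g ∈ S.N a ∧ g • b = b := Iff.rfl

theorem K_fix_left {a b : X} {g : G} (h : g ∈ S.K a b) : g • a = a := S.le a g h.1

theorem K_conj {a b : X} (g : G) {n : G} (hn : n ∈ S.K a b) :
    g * n * g⁻¹ ∈ S.K (g • a) (g • b) :=
  ⟨S.conj g a n hn.1, show (g * n * g⁻¹) • g • b = g • b by
    rw [mul_smul, mul_smul, inv_smul_smul, show n • b = b from hn.2]⟩

/-- The orbit of `b` under `N a`. -/
noncomputable def O (a b : X) : Finset X :=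
  Finset.univ.filter fun z => ∃ n ∈ S.N a, n • b = z

theorem mem_O {a b z : X} : z ∈ S.O a b ↔ ∃ n ∈ S.N a, n • b = z := by simp [O]

theorem self_mem_O (a b : X) : b ∈ S.O a b := S.mem_O.2 ⟨1, (S.N a).one_mem, one_smul G b⟩

theorem left_notMem_O {a b : X} (h : a ≠ b) : a ∉ S.O a b := fun ha => by
  obtain ⟨n, hn, he⟩ := S.mem_O.1 ha
  exact h (MulAction.injective n ((S.le a n hn).trans he.symm))

theorem O_self (a : X) : S.O a a = {a} := by
  ext z
  rw [mem_O, Finset.mem_singleton]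
  exact ⟨fun ⟨n, hn, he⟩ => he ▸ S.le a n hn, fun h => ⟨1, (S.N a).one_mem, by rw [one_smul, h]⟩⟩

theorem O_eq {a b z : X} (hz : z ∈ S.O a b) : S.O a z = S.O a b := by
  obtain ⟨n, hn, rfl⟩ := S.mem_O.1 hz
  ext w
  rw [mem_O, mem_O]
  exact ⟨fun ⟨m, hm, he⟩ => ⟨m * n, (S.N a).mul_mem hm hn, by rw [mul_smul, he]⟩,
    fun ⟨m, hm, he⟩ => ⟨m * n⁻¹, (S.N a).mul_mem hm ((S.N a).inv_mem hn), by
      rw [mul_smul, inv_smul_smul, he]⟩⟩

theorem smul_mem_O (g : G) {a b z : X} (hz : z ∈ S.O a b) : g • z ∈ S.O (g • a) (g • b) := by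
  obtain ⟨n, hn, rfl⟩ := S.mem_O.1 hz
  exact S.mem_O.2 ⟨g * n * g⁻¹, S.conj g a n hn, by rw [mul_smul, mul_smul, inv_smul_smul]⟩

theorem smul_mem_O_iff (g : G) (a b z : X) : g • z ∈ S.O (g • a) (g • b) ↔ z ∈ S.O a b :=
  ⟨fun h => by
    have := S.smul_mem_O g⁻¹ h
    rwa [inv_smul_smul, inv_smul_smul, inv_smul_smul] at this, S.smul_mem_O g⟩

theorem card_O {a b a' b' : X} (h : a ≠ b) (h' : a' ≠ b') : (S.O a b).card = (S.O a' b').card := by
  obtain ⟨g, rfl, rfl⟩ := S.two a b a' b' h h'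
  exact Finset.card_equiv (MulAction.toPerm g) fun z => (S.smul_mem_O_iff g a b z).symm

theorem card_K {a b a' b' : X} (h : a ≠ b) (h' : a' ≠ b') :
    Nat.card (S.K a b) = Nat.card (S.K a' b') := by
  obtain ⟨g, rfl, rfl⟩ := S.two a b a' b' h h'
  refine Nat.card_congr (Equiv.subtypeEquiv (MulAut.conj g).toEquiv fun n => ?_)
  simp only [MulEquiv.toEquiv_eq_coe, EquivLike.coe_coe, MulAut.conj_apply]
  refine ⟨S.K_conj g, fun hn => ?_⟩
  have := S.K_conj g⁻¹ hn
  rwa [inv_smul_smul, inv_smul_smul, inv_inv, ← mul_assoc, ← mul_assoc, inv_mul_cancel, one_mul,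
    mul_assoc, inv_mul_cancel, mul_one] at this

include S in
theorem exists_third_point (a b : X) (hab : a ≠ b) : ∃ z, z ≠ a ∧ z ≠ b := by
  by_contra hcon
  push Not at hcon
  obtain ⟨u, w, huw, n, hn, hn1, hnw⟩ := S.ns
  obtain ⟨g, h1, h2⟩ := S.two u w a b huw hab
  refine hn1 (S.faithful n fun z => ?_)
  have : g • z = a ∨ g • z = b := by
    by_cases h : g • z = a
    · exact Or.inl h
    · exact Or.inr (hcon _ h)
  rcases this with h | h
  · rw [MulAction.injective g (h.trans h1.symm)]; exact S.le u n hn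
  · rw [MulAction.injective g (h.trans h2.symm)]; exact hnw

theorem K_ne_bot {a b : X} (h : a ≠ b) : ∃ k ∈ S.K a b, k ≠ 1 := by
  obtain ⟨u, w, huw, n, hn, hn1, hnw⟩ := S.ns
  obtain ⟨g, rfl, rfl⟩ := S.two u w a b huw h
  exact ⟨g * n * g⁻¹, S.K_conj g ⟨hn, hnw⟩, fun e => hn1 (conj_eq_one_iff.1 e)⟩

/-- An element of `N a` fixing `b` fixes its orbit pointwise. -/
theorem K_fix_O {a b z : X} {k : G} (hk : k ∈ S.K a b) (hz : z ∈ S.O a b) : k • z = z := by
  obtain ⟨n, hn, rfl⟩ := S.mem_O.1 hz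
  rw [← mul_smul, S.comm a k hk.1 n hn, mul_smul, show k • b = b from hk.2]

theorem two_le_O {a b : X} (h : a ≠ b) : 2 ≤ (S.O a b).card := by
  by_contra hc
  obtain ⟨u, w, huw, n, hn, hn1, hnw⟩ := S.ns
  refine hn1 (S.faithful n fun z => ?_)
  by_cases hz : u = z
  · subst hz; exact S.le u n hn
  · exact Finset.card_le_one.1 (by rw [S.card_O hz h]; omega) _ (S.mem_O.2 ⟨n, hn, rfl⟩) z
      (S.self_mem_O u z)

/-- The centres joining two points. -/
noncomputable def centres (z z' : X) : Finset X :=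
  Finset.univ.filter fun c => z' ∈ S.O c z

theorem mem_centres {z z' c : X} : c ∈ S.centres z z' ↔ z' ∈ S.O c z := by simp [centres]

theorem centres_ne {z z' c : X} (h : z ≠ z') (hc : c ∈ S.centres z z') : c ≠ z := by
  rintro rfl
  rw [mem_centres, O_self, Finset.mem_singleton] at hc
  exact h hc.symm

theorem card_centres_const {z z' w w' : X} (h : z ≠ z') (h' : w ≠ w') :
    (S.centres z z').card = (S.centres w w').card := by
  obtain ⟨g, rfl, rfl⟩ := S.two z z' w w' h h'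
  refine Finset.card_equiv (MulAction.toPerm g) fun c => ?_
  rw [mem_centres, mem_centres]
  exact (S.smul_mem_O_iff g c z z').symm

/-- Two points have `q - 1` centres. -/
theorem card_centres {z z' a b : X} (h : z ≠ z') (hab : a ≠ b) :
    (S.centres z z').card + 1 = (S.O a b).card := by
  have hcnt := Finset.sum_card_bipartiteAbove_eq_sum_card_bipartiteBelow
    (fun (c w : X) => w ∈ S.O c z) (s := (Finset.univ : Finset X).erase z)
    (t := (Finset.univ : Finset X).erase z)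
  rw [Finset.sum_congr rfl (fun c (hc : c ∈ (Finset.univ : Finset X).erase z) => show
      (((Finset.univ : Finset X).erase z).bipartiteAbove (fun (c w : X) => w ∈ S.O c z) c).card =
        (S.O a b).card - 1 from by
        rw [Finset.mem_erase] at hc
        rw [S.card_O hab hc.1, ← Finset.card_erase_of_mem (S.self_mem_O c z)]
        congr 1
        ext w
        simp [Finset.mem_bipartiteAbove]),
    Finset.sum_congr rfl (fun w (hw : w ∈ (Finset.univ : Finset X).erase z) => show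
      (((Finset.univ : Finset X).erase z).bipartiteBelow (fun (c w : X) => w ∈ S.O c z) w).card =
        (S.centres z z').card from by
        rw [Finset.mem_erase] at hw
        rw [S.card_centres_const h hw.1.symm]
        congr 1
        ext c
        simp only [Finset.mem_bipartiteBelow, Finset.mem_erase, Finset.mem_univ, and_true, mem_centres]
        exact ⟨fun hh => hh.2, fun hh => ⟨S.centres_ne hw.1.symm (S.mem_centres.2 hh), hh⟩⟩),
    Finset.sum_const, Finset.sum_const, smul_eq_mul, smul_eq_mul] at hcnt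
  have hpos : 0 < ((Finset.univ : Finset X).erase z).card :=
    Finset.card_pos.2 ⟨z', Finset.mem_erase.2 ⟨h.symm, Finset.mem_univ _⟩⟩
  have := Nat.eq_of_mul_eq_mul_left hpos hcnt
  have := S.two_le_O hab
  omega

/-- Different subgroups meet trivially. -/
theorem ti {a b : X} (hab : a ≠ b) {d : G} (ha : d ∈ S.N a) (hb : d ∈ S.N b) : d = 1 := by
  by_contra h1
  obtain ⟨z, hz⟩ : ∃ z, d • z ≠ z := by
    by_contra h
    push Not at h
    exact h1 (S.faithful d h)
  have hsub : insert a (S.O a b) ⊆ S.centres z (d • z) := by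
    intro c hc
    rw [mem_centres, mem_O]
    refine ⟨d, ?_, rfl⟩
    rcases Finset.mem_insert.1 hc with rfl | hc
    · exact ha
    · obtain ⟨n, hn, rfl⟩ := S.mem_O.1 hc
      have := S.conj n b d hb
      rwa [S.comm a n hn d ha, mul_assoc, mul_inv_cancel, mul_one] at this
  have := Finset.card_le_card hsub
  rw [Finset.card_insert_of_notMem (S.left_notMem_O hab)] at this
  have := S.card_centres (Ne.symm hz) hab
  omega

theorem N_eq {a b : X} {d : G} (ha : d ∈ S.N a) (hb : d ∈ S.N b) (h1 : d ≠ 1) : a = b :=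
  by_contra fun h => h1 (S.ti h ha hb)

/-- Elements with centres fixing each other's centres commute. -/
theorem commute {a b : X} {n m : G} (hn : n ∈ S.N a) (hm : m ∈ S.N b) (hnb : n • b = b)
    (hma : m • a = a) : n * m = m * n := by
  by_cases hab : a = b
  · subst hab; exact S.comm a n hn m hm
  · have h1 : n * (m * n⁻¹ * m⁻¹) ∈ S.N a :=
      (S.N a).mul_mem hn (S.conj_fix hma ((S.N a).inv_mem hn))
    have h2 : (n * m * n⁻¹) * m⁻¹ ∈ S.N b :=
      (S.N b).mul_mem (S.conj_fix hnb hm) ((S.N b).inv_mem hm)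
    rw [← mul_assoc, ← mul_assoc] at h1
    have := S.ti hab h1 h2
    rwa [mul_inv_eq_one, mul_inv_eq_iff_eq_mul] at this

/-- Only elements fixing `b` centralise a non-trivial element of `N b`. -/
theorem fix_of_commute {b : X} {g m : G} (hm : m ∈ S.N b) (h1 : m ≠ 1) (h : g * m = m * g) :
    g • b = b := by
  have h2 := S.conj g b m hm
  rw [h, mul_inv_cancel_right] at h2
  exact (S.N_eq hm h2 h1).symm

/-- An element of order `p` normalising a non-trivial `p`-group has a fixed point there. -/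
theorem exists_commute {k : G} (hk : k ^ S.p = 1) (M : Subgroup G) (hM : IsPGroup S.p M)
    (hne : ∃ m ∈ M, m ≠ 1) (hnorm : ∀ m ∈ M, k * m * k⁻¹ ∈ M) :
    ∃ m ∈ M, m ≠ 1 ∧ k * m = m * k := by
  haveI : Fact S.p.Prime := ⟨S.hp⟩
  let σ : Equiv.Perm M := Equiv.ofBijective (fun m => ⟨k * m.1 * k⁻¹, hnorm m.1 m.2⟩)
    (Finite.injective_iff_bijective.1 fun a b h => Subtype.ext
      (mul_left_cancel (mul_right_cancel (congrArg Subtype.val h))))
  have hpow : ∀ (i : ℕ) (m : M), ((σ ^ i) m : G) = k ^ i * m.1 * (k ^ i)⁻¹ := by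
    intro i
    induction i with
    | zero => intro m; simp
    | succ i ih =>
      intro m
      rw [pow_succ, Equiv.Perm.mul_apply, ih]
      show k ^ i * (k * m.1 * k⁻¹) * (k ^ i)⁻¹ = _
      rw [pow_succ]; group
  have hσ : σ ^ S.p ^ 1 = 1 := Equiv.ext fun m => Subtype.ext (by
    rw [hpow, pow_one, hk]; simp)
  have h := Equiv.Perm.card_compl_support_modEq (p := S.p) hσ
  have h1 : (⟨1, M.one_mem⟩ : M) ∈ σ.supportᶜ := by
    rw [Finset.mem_compl, Equiv.Perm.mem_support, not_not]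
    exact Subtype.ext (show k * 1 * k⁻¹ = 1 by simp)
  obtain ⟨m, hm, hm1⟩ := hne
  obtain ⟨i, hi⟩ := IsPGroup.iff_card.1 hM
  have hdvd : S.p ∣ Fintype.card M := by
    rw [← Nat.card_eq_fintype_card, hi]
    refine dvd_pow_self _ fun h0 => hm1 ?_
    rw [h0, pow_zero, Subgroup.card_eq_one] at hi
    rw [hi, Subgroup.mem_bot] at hm
    exact hm
  have h2 : 1 < σ.supportᶜ.card := by
    have h3 : 0 < σ.supportᶜ.card := Finset.card_pos.2 ⟨_, h1⟩
    have h4 : S.p ∣ σ.supportᶜ.card :=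
      Nat.modEq_zero_iff_dvd.1 (h.trans (Nat.modEq_zero_iff_dvd.2 hdvd))
    have := Nat.le_of_dvd h3 h4
    have := S.hp.two_le
    omega
  obtain ⟨u, hu, hne1⟩ := Finset.exists_mem_ne h2 (⟨1, M.one_mem⟩ : M)
  rw [Finset.mem_compl, Equiv.Perm.mem_support, not_not] at hu
  refine ⟨u.1, u.2, fun e => hne1 (Subtype.ext e), ?_⟩
  have h5 : k * u.1 * k⁻¹ = u.1 := congrArg Subtype.val hu
  rwa [mul_inv_eq_iff_eq_mul] at h5

theorem exists_order_p {a b : X} (h : a ≠ b) : ∃ k ∈ S.K a b, k ≠ 1 ∧ k ^ S.p = 1 := by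
  obtain ⟨k, hk, hk1⟩ := S.K_ne_bot h
  obtain ⟨i, hi⟩ := S.pgroup a ⟨k, hk.1⟩
  have hi' : k ^ S.p ^ i = 1 := congrArg Subtype.val hi
  clear hi
  induction i with
  | zero => exact absurd (by simpa using hi') hk1
  | succ i ih =>
    by_cases h2 : k ^ S.p ^ i = 1
    · exact ih h2
    · exact ⟨k ^ S.p ^ i, (S.K a b).pow_mem hk _, h2, by rw [← pow_mul, ← pow_succ]; exact hi'⟩

/-- `K b a` fixes the orbit of `b` under `N a`. -/
theorem K_fix_O' {a b γ : X} (hab : a ≠ b) (hγ : γ ∈ S.O a b) {m : G} (hm : m ∈ S.K b a) :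
    m • γ = γ := by
  by_cases hγb : γ = b
  · subst hγb; exact S.le γ m hm.1
  obtain ⟨k, hk, hk1, hkp⟩ := S.exists_order_p hab
  have hkγ := S.K_fix_O hk hγ
  obtain ⟨m₀, hm₀, hne, hcom⟩ := S.exists_commute hkp (S.K b γ)
    ((S.pgroup b).to_le inf_le_left) (S.K_ne_bot (Ne.symm hγb))
    (fun x hx => by
      have := S.K_conj k hx
      rwa [show k • b = b from hk.2, hkγ] at this)
  have hm₀a : m₀ • a = a := S.fix_of_commute hk.1 hk1 hcom.symm
  obtain ⟨n, hn, rfl⟩ := S.mem_O.1 hγ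
  have hma : m • a = a := hm.2
  have hcm : m₀ * m = m * m₀ := S.comm b m₀ hm₀.1 m hm.1
  set k₀ := (m₀ * n * m₀⁻¹) * n⁻¹ with hk₀
  have hk₀K : k₀ ∈ S.K a b := by
    refine ⟨(S.N a).mul_mem (S.conj_fix hm₀a hn) ((S.N a).inv_mem hn), ?_⟩
    have hc : k₀ * n = n * k₀ :=
      S.comm a _ ((S.N a).mul_mem (S.conj_fix hm₀a hn) ((S.N a).inv_mem hn)) n hn
    have h1 : k₀ • n • b = n • b := by
      rw [hk₀, ← mul_smul]
      rw [inv_mul_cancel_right, mul_smul, mul_smul,
        show m₀⁻¹ • b = b by rw [inv_smul_eq_iff, S.le b m₀ hm₀.1]]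
      exact hm₀.2
    rw [← mul_smul, hc, mul_smul] at h1
    exact MulAction.injective n h1
  have hcomm : k₀ * m = m * k₀ := S.commute hk₀K.1 hm.1 hk₀K.2 hma
  set n₁ := (m * n * m⁻¹) * n⁻¹ with hn₁
  have hn₁N : n₁ ∈ S.N a := (S.N a).mul_mem (S.conj_fix hma hn) ((S.N a).inv_mem hn)
  have hcent : n₁ * m₀ = m₀ * n₁ := by
    have e1 : m₀ * n * m₀⁻¹ = k₀ * n := by rw [hk₀]; group
    have e2 : m₀ * (m * n * m⁻¹) * m₀⁻¹ = k₀ * (m * n * m⁻¹) :=
      calc m₀ * (m * n * m⁻¹) * m₀⁻¹ = (m₀ * m) * n * (m₀ * m)⁻¹ := by group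
        _ = (m * m₀) * n * (m * m₀)⁻¹ := by rw [hcm]
        _ = m * (m₀ * n * m₀⁻¹) * m⁻¹ := by group
        _ = (m * k₀) * n * m⁻¹ := by rw [e1]; group
        _ = k₀ * (m * n * m⁻¹) := by rw [← hcomm]; group
    have e3 : m₀ * n₁ * m₀⁻¹ = n₁ :=
      calc m₀ * n₁ * m₀⁻¹ = (m₀ * (m * n * m⁻¹) * m₀⁻¹) * (m₀ * n * m₀⁻¹)⁻¹ := by rw [hn₁]; group
        _ = k₀ * n₁ * k₀⁻¹ := by rw [e1, e2, hn₁]; group
        _ = n₁ := by rw [S.comm a k₀ hk₀K.1 n₁ hn₁N, mul_inv_cancel_right]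
    exact (mul_inv_eq_iff_eq_mul.1 e3).symm
  have hn₁b : n₁ • b = b := S.fix_of_commute hm₀.1 hne hcent
  have e4 : m * n = n * n₁ * m := by
    rw [← S.comm a n₁ hn₁N n hn, hn₁]; group
  rw [← mul_smul, e4, mul_smul, mul_smul, S.le b m hm.1, hn₁b]

end AbSys

end CfsgLib.MetacyclicP.ONanAbelian
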